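import Mathlib.NumberTheory.Multiplicity
import Mathlib.NumberTheory.Padics.PadicVal.Basic
import Mathlib.Data.Nat.Choose.Factorization
import Mathlib.Data.Nat.Choose.Lucas
import Mathlib.Data.ZMod.Basic
import Mathlib.GroupTheory.OrderOfElement
import Mathlib.Tactic

/-!
# Numbers for the labels of height one (S4933, PSL / PSU)

* `fac_prod` : the `p`-part of `∏ (Q ^ (i + 1) - 1)`, `i < n`;
* `exists_choose` : `p ≤ w`: a binomial coefficient of `w` with `p`-part `p`, or `p ∤ w.choose (p + 1)`.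
-/

set_option autoImplicit false

namespace Cfsg.Agent.H421.HT

/-! ### the order formula -/

theorem fac_mul {p : ℕ} {a b : ℤ} (ha : a ≠ 0) (hb : b ≠ 0) :
    (a * b).natAbs.factorization p = a.natAbs.factorization p + b.natAbs.factorization p := by
  rw [Int.natAbs_mul, Nat.factorization_mul (Int.natAbs_ne_zero.2 ha) (Int.natAbs_ne_zero.2 hb), Finsupp.add_apply]

theorem pow_sub_one_ne {Q : ℤ} (hQ : 2 ≤ |Q|) {k : ℕ} (hk : 0 < k) : Q ^ k - 1 ≠ 0 := by
  intro h
  have h1 : |Q| ^ k = 1 := by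
    rw [← abs_pow, sub_eq_zero.1 h, abs_one]
  have h2 : (1 : ℤ) < |Q| ^ k := one_lt_pow₀ (by linarith) hk.ne'
  linarith

theorem dvd_iff {p : ℕ} {Q : ℤ} (k : ℕ) : (p : ℤ) ∣ Q ^ k - 1 ↔ orderOf (Q : ZMod p) ∣ k := by
  rw [orderOf_dvd_iff_pow_eq_one, ← ZMod.intCast_zmod_eq_zero_iff_dvd, Int.cast_sub, Int.cast_pow, Int.cast_one,
    sub_eq_zero]

/-- lifting the exponent -/
theorem fac_pow {p : ℕ} (hp : p.Prime) (hodd : Odd p) {x : ℤ} (hx : (p : ℤ) ∣ x - 1) (hx1 : x - 1 ≠ 0) {n : ℕ}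
    (hn : 0 < n) (hxn : x ^ n - 1 ≠ 0) :
    (x ^ n - 1).natAbs.factorization p = (x - 1).natAbs.factorization p + n.factorization p := by
  have := Fact.mk hp
  have hxp : ¬ (p : ℤ) ∣ x := by
    intro h
    have h1 : (p : ℤ) ∣ 1 := by
      have := dvd_sub h hx
      rwa [sub_sub_cancel] at this
    exact hp.one_lt.ne' (by exact_mod_cast Int.natAbs_dvd_natAbs.2 h1 |> Nat.dvd_one.1)
  have h1 := Int.emultiplicity_pow_sub_pow hp hodd (x := x) (y := 1) hx hxp n
  rw [one_pow, ← Int.emultiplicity_natAbs, ← Int.emultiplicity_natAbs,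
    ← padicValNat_eq_emultiplicity (Int.natAbs_ne_zero.2 hxn), ← padicValNat_eq_emultiplicity (Int.natAbs_ne_zero.2 hx1),
    ← padicValNat_eq_emultiplicity hn.ne'] at h1
  rw [Nat.factorization_def _ hp, Nat.factorization_def _ hp, Nat.factorization_def _ hp]
  exact_mod_cast h1

/-- the factors -/
theorem fac_factor {p : ℕ} (hp : p.Prime) (hodd : Odd p) {Q : ℤ} (hQ : 2 ≤ |Q|) {k : ℕ}
    (hk : 0 < k) : (Q ^ k - 1).natAbs.factorization p =
      if orderOf (Q : ZMod p) ∣ k then
        (Q ^ orderOf (Q : ZMod p) - 1).natAbs.factorization p + (k / orderOf (Q : ZMod p)).factorization p else 0 := by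
  split_ifs with h
  · obtain ⟨j, rfl⟩ := h
    have he : 0 < orderOf (Q : ZMod p) := Nat.pos_of_mul_pos_right hk
    have hj : 0 < j := Nat.pos_of_mul_pos_left hk
    rw [Nat.mul_div_cancel_left _ he, pow_mul]
    refine fac_pow hp hodd ((dvd_iff _).2 dvd_rfl) (pow_sub_one_ne hQ he) hj ?_
    rw [← pow_mul]
    exact pow_sub_one_ne hQ hk
  · apply Nat.factorization_eq_zero_of_not_dvd
    rw [← Int.natCast_dvd]
    exact fun h' => h ((dvd_iff k).1 h')

/-- **(N1)** -/
theorem fac_prod {p : ℕ} (hp : p.Prime) (hodd : Odd p) {Q : ℤ} (hQ : 2 ≤ |Q|) (n : ℕ) :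
    (∏ i ∈ Finset.range n, (Q ^ (i + 1) - 1)).natAbs.factorization p =
      (n / orderOf (Q : ZMod p)) * (Q ^ orderOf (Q : ZMod p) - 1).natAbs.factorization p +
        ((n / orderOf (Q : ZMod p)).factorial).factorization p := by
  induction n with
  | zero => simp
  | succ n ih =>
    rw [Finset.prod_range_succ, fac_mul (Finset.prod_ne_zero_iff.2 fun i _ => pow_sub_one_ne hQ i.succ_pos)
      (pow_sub_one_ne hQ n.succ_pos), ih, fac_factor hp hodd hQ n.succ_pos, Nat.succ_div]
    split_ifs with h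
    · rw [Nat.factorial_succ, Nat.factorization_mul (Nat.succ_ne_zero _) (Nat.factorial_ne_zero _),
        Finsupp.add_apply]
      ring
    · simp

/-! ### binomial coefficients -/

/-- one carry -/
theorem choose_one {p : ℕ} (hp : p.Prime) {j r d u : ℕ} (hr : r < p ^ j) (hd : d + 1 < p) (hu : ¬ p ∣ u + 1) :
    ((r + p ^ j * d + p ^ (j + 1) * (u + 1)).choose ((d + 1) * p ^ j)).factorization p = 1 := by
  have hp0 := hp.pos
  obtain ⟨P, hP⟩ : ∃ P, P = p ^ j := ⟨_, rfl⟩
  have hP0 : 0 < P := hP ▸ pow_pos hp0 j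
  set n := r + P * (p - 1) + p ^ (j + 1) * u with hn
  set k := (d + 1) * P with hk
  have hw : r + p ^ j * d + p ^ (j + 1) * (u + 1) = n + k := by
    rw [hn, hk, pow_succ, ← hP]
    obtain ⟨p', rfl⟩ : ∃ p', p = p' + 1 := ⟨p - 1, by omega⟩
    rw [Nat.add_sub_cancel]
    ring
  rw [hw, ← hP, ← hk, Nat.factorization_choose' hp (b := Nat.log p (n + k) + 1) (Nat.lt_succ_self _)]
  have hkey : ∀ i, 1 ≤ i → (p ^ i ≤ k % p ^ i + n % p ^ i ↔ i = j + 1) := by
    intro i hi
    rcases lt_trichotomy i (j + 1) with h | h | h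
    · -- below
      have h1 : p ^ i ∣ P := hP ▸ pow_dvd_pow p (by omega)
      have h2 : k % p ^ i = 0 := Nat.mod_eq_zero_of_dvd (Dvd.dvd.mul_left h1 _)
      have h3 := Nat.mod_lt n (pow_pos hp0 i)
      constructor
      · intro h4; omega
      · intro h4; omega
    · subst h
      have h1 : k % p ^ (j + 1) = k := Nat.mod_eq_of_lt (by
        rw [hk, pow_succ, ← hP, mul_comm]
        exact Nat.mul_lt_mul_of_pos_left hd hP0)
      have h2 : n % p ^ (j + 1) = r + P * (p - 1) := by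
        rw [hn, Nat.add_mul_mod_self_left]
        refine Nat.mod_eq_of_lt ?_
        obtain ⟨p', hp'⟩ : ∃ p', p = p' + 1 := ⟨p - 1, by omega⟩
        rw [pow_succ, ← hP, hp', Nat.add_sub_cancel, mul_add, mul_one]
        rw [← hP] at hr
        omega
      rw [h1, h2]
      constructor
      · intro; rfl
      · intro _
        obtain ⟨p', hp'⟩ : ∃ p', p = p' + 1 := ⟨p - 1, by omega⟩
        rw [pow_succ, ← hP, hk, hp', Nat.add_sub_cancel, mul_add, mul_one, add_mul, one_mul]
        omega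
    · -- above
      obtain ⟨m, rfl⟩ : ∃ m, i = j + 1 + (m + 1) := ⟨i - j - 2, by omega⟩
      have h0 : p ^ (j + 1 + (m + 1)) = p ^ (j + 1) * p ^ (m + 1) := pow_add _ _ _
      have h00 : p ^ (j + 1) = P * p := by rw [pow_succ, ← hP]
      have hu' : u % p ^ (m + 1) + 2 ≤ p ^ (m + 1) := by
        have h3 := Nat.mod_lt u (pow_pos hp0 (m + 1))
        by_contra h4
        apply hu
        have h5 : u % p ^ (m + 1) + 1 = p ^ (m + 1) := by omega
        have h6 : p ^ (m + 1) ∣ u + 1 := by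
          have h7 := Nat.div_add_mod u (p ^ (m + 1))
          rw [← h7, add_assoc, h5]
          exact dvd_add (dvd_mul_right _ _) dvd_rfl
        exact (dvd_pow_self p (Nat.succ_ne_zero m)).trans h6
      have h1 : k < p ^ (j + 1) := by
        rw [hk, h00, mul_comm]
        exact Nat.mul_lt_mul_of_pos_left hd hP0
      have h2 : r + P * (p - 1) < p ^ (j + 1) := by
        obtain ⟨p', hp'⟩ : ∃ p', p = p' + 1 := ⟨p - 1, by omega⟩
        rw [h00, hp', Nat.add_sub_cancel, mul_add, mul_one]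
        rw [← hP] at hr
        omega
      have h3 : n % p ^ (j + 1 + (m + 1)) = r + P * (p - 1) + p ^ (j + 1) * (u % p ^ (m + 1)) := by
        have h4 : n = r + P * (p - 1) + p ^ (j + 1) * (u % p ^ (m + 1)) +
            p ^ (j + 1 + (m + 1)) * (u / p ^ (m + 1)) := by
          rw [hn, h0]
          conv_lhs => rw [← Nat.mod_add_div u (p ^ (m + 1))]
          ring
        rw [h4, Nat.add_mul_mod_self_left]
        refine Nat.mod_eq_of_lt ?_
        have h5 : p ^ (j + 1) * (u % p ^ (m + 1) + 2) ≤ p ^ (j + 1) * p ^ (m + 1) := Nat.mul_le_mul_left _ hu'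
        rw [h0]
        rw [mul_add] at h5
        omega
      have h4 : k % p ^ (j + 1 + (m + 1)) = k := Nat.mod_eq_of_lt (h1.trans_le (Nat.pow_le_pow_right hp0 (by omega)))
      have h5 : p ^ (j + 1) * (u % p ^ (m + 1) + 2) ≤ p ^ (j + 1) * p ^ (m + 1) := Nat.mul_le_mul_left _ hu'
      rw [h3, h4]
      rw [mul_add, ← h0] at h5
      constructor
      · intro h6; omega
      · intro h6; omega
  have hj : j + 1 < Nat.log p (n + k) + 1 := by
    have h1 : p ^ (j + 1) ≤ n + k := by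
      rw [← hw]
      exact (Nat.le_mul_of_pos_right _ (Nat.succ_pos u)).trans (Nat.le_add_left _ _)
    have h2 := Nat.le_log_of_pow_le hp.one_lt h1
    omega
  rw [Finset.card_eq_one]
  refine ⟨j + 1, ?_⟩
  ext i
  rw [Finset.mem_filter, Finset.mem_Ico, Finset.mem_singleton]
  constructor
  · rintro ⟨⟨h1, -⟩, h2⟩
    exact (hkey i h1).1 h2
  · rintro rfl
    exact ⟨⟨by omega, hj⟩, (hkey _ (by omega)).2 rfl⟩

/-- **(N2)** -/
theorem exists_choose {p : ℕ} (hp : p.Prime) {w : ℕ} (hw : p ≤ w) :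
    (∃ k, 1 ≤ k ∧ k ≤ w ∧ (w.choose k).factorization p = 1) ∨ (p + 1 ≤ w ∧ ¬ p ∣ w.choose (p + 1)) := by
  have hp0 := hp.pos
  have h2 := hp.two_le
  have hq : w / p ≠ 0 := (Nat.div_pos hw hp0).ne'
  obtain ⟨j, u, hu, hju⟩ := Nat.exists_eq_pow_mul_and_not_dvd hq p hp.one_lt.ne'
  obtain ⟨u, rfl⟩ : ∃ v, u = v + 1 := ⟨u - 1, by
    have : u ≠ 0 := by rintro rfl; exact hu (dvd_zero p)
    omega⟩
  have hdm := Nat.div_add_mod w p
  have hlt := Nat.mod_lt w hp0
  rcases Nat.eq_zero_or_pos j with rfl | hj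
  · rw [pow_zero, one_mul] at hju
    rcases Nat.lt_or_ge (w % p + 1) p with h | h
    · left
      have h1 := choose_one hp (j := 0) (r := 0) (d := w % p) (u := u) (by simp) h hu
      have h3 : 0 + p ^ 0 * (w % p) + p ^ (0 + 1) * (u + 1) = w := by
        rw [pow_zero, zero_add, one_mul, zero_add, pow_one, ← hju, add_comm, hdm]
      rw [h3, pow_zero, mul_one] at h1
      exact ⟨w % p + 1, by omega, by omega, h1⟩
    · right
      have h5 : p * 1 ≤ p * (w / p) := Nat.mul_le_mul_left p (by omega)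
      refine ⟨by omega, fun h3 => ?_⟩
      have := Fact.mk hp
      have h4 := (Choose.choose_modEq_choose_mod_mul_choose_div_nat (n := w) (k := p + 1) (p := p))
      have h6 : w % p = p - 1 := by omega
      have h7 : (p + 1) % p = 1 := by
        rw [Nat.add_mod_left, Nat.mod_eq_of_lt hp.one_lt]
      have h8 : (p + 1) / p = 1 := by
        rw [Nat.add_div_left _ hp0, Nat.div_eq_of_lt hp.one_lt]
      rw [h6, h7, h8, hju, Nat.choose_one_right, Nat.choose_one_right] at h4
      have h9 : p ∣ (p - 1) * (u + 1) := (Nat.modEq_zero_iff_dvd.1 (h4.symm.trans (Nat.modEq_zero_iff_dvd.2 h3)))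
      rcases (hp.dvd_mul).1 h9 with h10 | h10
      · exact absurd (Nat.le_of_dvd (by omega) h10) (by omega)
      · exact hu h10
  · left
    have hr : w % p < p ^ j := hlt.trans_le (by
      calc p = p ^ 1 := (pow_one p).symm
        _ ≤ p ^ j := Nat.pow_le_pow_right hp0 hj)
    have h1 := choose_one hp (j := j) (r := w % p) (d := 0) (u := u) hr (by omega) hu
    have h3 : w % p + p ^ j * 0 + p ^ (j + 1) * (u + 1) = w := by
      rw [mul_zero, add_zero, pow_succ, mul_right_comm, mul_comm (p ^ j * _) p, ← hju, add_comm, hdm]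
    rw [h3, zero_add, one_mul] at h1
    refine ⟨p ^ j, Nat.one_le_pow _ _ hp0, ?_, h1⟩
    calc p ^ j ≤ p ^ j * (u + 1) := Nat.le_mul_of_pos_right _ (Nat.succ_pos u)
      _ = w / p := hju.symm
      _ ≤ w := Nat.div_le_self w p

end Cfsg.Agent.H421.HT
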