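import Cfsg.Agent.H681.IP.Sec
import Cfsg.Agent.H316.HT.Defs

/-!
# Two nonabelian pairs (S4933, `a ≥ 2`)

* `TwoPair p S` : a `p`-subgroup of `S` contains `x₁, y₁, x₂, y₂`, where `x₁` does not commute with `y₁`, `x₂` does not
  commute with `y₂`, and `x₁`, `x₂` commute with each other, `x₁` with `y₂`, `x₂` with `y₁` (nothing on `y₁`, `y₂`);
* `two_le` : then the Sylow `p`-subgroups have no set of degrees `{1, p}`.
-/

set_option autoImplicit false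

open Subgroup

namespace Cfsg.Agent.H421.HT

open Cfsg Cfsg.Agent.H681.IP Cfsg.Agent.H316.HT

universe u v w

section Group

variable {P : Type u} [Group P] [Finite P] {p : ℕ}

/-- the centre has index divisible by `p ^ 4` -/
theorem pow_four_dvd' (hp : p.Prime) (hP : IsPGroup p P) {x₁ y₁ x₂ y₂ : P} (h1 : x₁ * y₁ ≠ y₁ * x₁)
    (h2 : x₂ * y₂ ≠ y₂ * x₂) (c1 : Commute x₁ x₂) (c2 : Commute x₁ y₂) (c3 : Commute y₁ x₂) :
    p ^ 4 ∣ (center P).index := by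
  have hm : ∀ {x y : P}, x ∈ centralizer ({y} : Set P) ↔ y * x = x * y := fun {x y} => by
    rw [mem_centralizer_singleton_iff]
    exact eq_comm
  let D1 := centralizer ({x₁} : Set P)
  let D2 := D1 ⊓ centralizer ({x₂} : Set P)
  let D3 := D2 ⊓ centralizer ({y₁} : Set P)
  let D4 := D3 ⊓ centralizer ({y₂} : Set P)
  have d1 : p ∣ D1.relIndex ⊤ := dvd_relIndex hp hP fun h => h1 (hm.1 (h (mem_top y₁)))
  have d2 : p ∣ D2.relIndex D1 := dvd_relIndex hp hP fun h =>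
    h2 (hm.1 (h (show y₂ ∈ D1 from hm.2 c2.eq)).2)
  have d3 : p ∣ D3.relIndex D2 := dvd_relIndex hp hP fun h =>
    h1 (hm.1 (h (show x₁ ∈ D2 from ⟨hm.2 rfl, hm.2 c1.symm.eq⟩)).2).symm
  have d4 : p ∣ D4.relIndex D3 := dvd_relIndex hp hP fun h =>
    h2 (hm.1 (h (show x₂ ∈ D3 from ⟨⟨hm.2 c1.eq, hm.2 rfl⟩, hm.2 c3.eq⟩)).2).symm
  have e1 := relIndex_mul_relIndex D2 D1 ⊤ inf_le_left le_top
  have e2 := relIndex_mul_relIndex D3 D2 ⊤ inf_le_left le_top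
  have e3 := relIndex_mul_relIndex D4 D3 ⊤ inf_le_left le_top
  have e4 := relIndex_mul_relIndex (center P) D4 ⊤ (fun z hz => by
    have hz' : ∀ g : P, z ∈ centralizer ({g} : Set P) := fun g => hm.2 (mem_center_iff.1 hz g)
    exact ⟨⟨⟨hz' _, hz' _⟩, hz' _⟩, hz' _⟩) le_top
  rw [relIndex_top_right (center P)] at e4
  rw [← e4, ← e3, ← e2, ← e1]
  have h3 : p ^ 4 = p * (p * (p * p)) := by ring
  rw [h3]
  exact Dvd.dvd.mul_left (mul_dvd_mul d4 (mul_dvd_mul d3 (mul_dvd_mul d2 d1))) _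

/-- an abelian subgroup of index `p` and the two pairs -/
theorem false_of_abelian' (hp : p.Prime) {A : Subgroup P} (hn : A.Normal) (hab : ∀ x ∈ A, ∀ y ∈ A, x * y = y * x)
    (hA : A.index = p) {x₁ y₁ x₂ y₂ : P} (h1 : x₁ * y₁ ≠ y₁ * x₁)
    (h2 : x₂ * y₂ ≠ y₂ * x₂) (c1 : Commute x₁ x₂) (c2 : Commute x₁ y₂) (c3 : Commute y₁ x₂) : False := by
  have hprime : Fact (Nat.card (P ⧸ A)).Prime := ⟨by rw [← index_eq_card, hA]; exact hp⟩
  have key : ∀ t : P, t ∉ A → ∀ g : P, ∃ k : ℤ, ∃ b ∈ A, g = t ^ k * b := by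
    intro t ht g
    have h3 : (t : P ⧸ A) ≠ 1 := fun h => ht ((QuotientGroup.eq_one_iff t).1 h)
    have h4 : (g : P ⧸ A) ∈ zpowers (t : P ⧸ A) := by
      rcases (zpowers (t : P ⧸ A)).eq_bot_or_eq_top_of_prime_card with h | h
      · exact absurd (zpowers_eq_bot.1 h) h3
      · rw [h]; exact mem_top _
    obtain ⟨k, hk⟩ := mem_zpowers_iff.1 h4
    refine ⟨k, (t ^ k)⁻¹ * g, ?_, by group⟩
    rw [← QuotientGroup.eq_one_iff, QuotientGroup.mk_mul, QuotientGroup.mk_inv, QuotientGroup.mk_zpow, hk]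
    group
  -- an element of `A` which commutes with `t ∉ A` is central
  have hcen : ∀ t : P, t ∉ A → ∀ b ∈ A, Commute b t → ∀ g : P, Commute b g := by
    intro t ht b hb hbt g
    obtain ⟨k, c, hc, rfl⟩ := key t ht g
    exact (hbt.zpow_right k).mul_right (hab b hb c hc)
  -- `v ∈ A` for both
  have hmem : ∀ {v w Y : P}, v * w = w * v → w * Y ≠ Y * w → Commute v Y → v ∈ A := by
    intro v w Y hvw hwY hvY
    by_contra hv
    by_cases hw : w ∈ A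
    · exact hwY (hcen v hv w hw hvw.symm Y).eq
    obtain ⟨k, b, hb, hk⟩ := key v hv w
    have hbv : Commute b v := by
      have h3 : b = (v ^ k)⁻¹ * w := by rw [hk]; group
      rw [h3]
      exact (((Commute.refl v).zpow_left k).inv_left).mul_left hvw.symm
    have h4 := hcen v hv b hb hbv Y
    apply hwY
    rw [hk]
    exact ((hvY.zpow_left k).mul_left h4).eq
  have m1 : x₁ ∈ A := hmem c1 h2 c2
  have m2 : x₂ ∈ A := hmem c1.symm h1 c3.symm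
  have n2 : y₂ ∉ A := fun h => h2 (hab _ m2 _ h)
  exact h1 (hcen y₂ n2 x₁ m1 c2 y₁).eq

/-- **The set of degrees is not `{1, p}`.** -/
theorem TD.false_of_triples (hp : p.Prime) (hP : IsPGroup p P) (h : TD p 1 P) {x₁ y₁ x₂ y₂ : P}
    (h1 : x₁ * y₁ ≠ y₁ * x₁) (h2 : x₂ * y₂ ≠ y₂ * x₂) (c1 : Commute x₁ x₂) (c2 : Commute x₁ y₂)
    (c3 : Commute y₁ x₂) : False := by
  have hcd : ∀ χ : IrrCharacter P, charDegree (χ : P → ℂ) = 1 ∨ charDegree (χ : P → ℂ) = p := by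
    intro χ
    have h3 := h χ
    rwa [pow_one] at h3
  have hex : ∃ χ : IrrCharacter P, charDegree (χ : P → ℂ) = p := by
    obtain ⟨χ, hχ⟩ := h.exists_deg h1
    exact ⟨χ, by rwa [pow_one] at hχ⟩
  rcases (Cfsg.Agent.S4459.result ⟨x₁, y₁, h1⟩ p hp).1 ⟨hcd, hex⟩ with ⟨A, hn, hab, hA⟩ | hZ
  · exact false_of_abelian' hp hn hab hA h1 h2 c1 c2 c3
  · have h3 := pow_four_dvd' hp hP h1 h2 c1 c2 c3
    rw [hZ] at h3
    have h4 := (Nat.pow_dvd_pow_iff_le_right hp.one_lt).1 h3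
    omega

end Group

/-- two nonabelian pairs in a `p`-subgroup -/
def TwoPair (p : ℕ) (S : Type v) [Group S] : Prop :=
  ∃ R : Subgroup S, IsPGroup p R ∧ ∃ x₁ ∈ R, ∃ y₁ ∈ R, ∃ x₂ ∈ R, ∃ y₂ ∈ R, x₁ * y₁ ≠ y₁ * x₁ ∧
    x₂ * y₂ ≠ y₂ * x₂ ∧ Commute x₁ x₂ ∧ Commute x₁ y₂ ∧ Commute y₁ x₂

theorem TwoPair.of_injective {p : ℕ} {S : Type v} [Group S] (h : TwoPair p S) {T : Type w} [Group T] (f : S →* T)
    (hf : Function.Injective f) : TwoPair p T := by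
  obtain ⟨R, hR, x₁, m1, y₁, m2, x₂, m3, y₂, m4, h1, h2, c1, c2, c3⟩ := h
  refine ⟨R.map f, hR.map f, f x₁, mem_map_of_mem f m1, f y₁, mem_map_of_mem f m2, f x₂, mem_map_of_mem f m3, f y₂,
    mem_map_of_mem f m4, fun h => h1 (hf ?_), fun h => h2 (hf ?_), c1.map f, c2.map f, c3.map f⟩
  · rw [map_mul, map_mul]; exact h
  · rw [map_mul, map_mul]; exact h

/-- **`a ≥ 2`** -/
theorem two_le {p : ℕ} (hp : p.Prime) {S : Type v} [Group S] (h : TwoPair p S) {A : Type} [Group A] [Finite A]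
    (N : Subgroup A) (e : N ≃* S) (P : Sylow p A) {a : ℕ} (hcd : CD p a (P : Subgroup A)) : 2 ≤ a := by
  have : Fact p.Prime := ⟨hp⟩
  obtain ⟨R, hR, x₁, m1, y₁, m2, x₂, m3, y₂, m4, h1, h2, c1, c2, c3⟩ := h
  obtain ⟨i, hi⟩ := exists_hom P (N.subtype.comp (e.symm.toMonoidHom.comp R.subtype))
    (fun a b hab => Subtype.val_injective (e.symm.injective (Subtype.val_injective hab))) hR
  have hTD : TD p a (P : Subgroup A) := hcd.1
  have n1 : i ⟨x₁, m1⟩ * i ⟨y₁, m2⟩ ≠ i ⟨y₁, m2⟩ * i ⟨x₁, m1⟩ := fun h => h1 (by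
    rw [← map_mul, ← map_mul] at h
    exact congrArg Subtype.val (hi h))
  have n2 : i ⟨x₂, m3⟩ * i ⟨y₂, m4⟩ ≠ i ⟨y₂, m4⟩ * i ⟨x₂, m3⟩ := fun h => h2 (by
    rw [← map_mul, ← map_mul] at h
    exact congrArg Subtype.val (hi h))
  have h0 : a ≠ 0 := hTD.ne_zero n1
  by_contra hlt
  have ha : a = 1 := by omega
  subst ha
  exact TD.false_of_triples hp P.isPGroup' hTD n1 n2
    ((show Commute (⟨x₁, m1⟩ : R) ⟨x₂, m3⟩ from Subtype.ext c1.eq).map i)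
    ((show Commute (⟨x₁, m1⟩ : R) ⟨y₂, m4⟩ from Subtype.ext c2.eq).map i)
    ((show Commute (⟨y₁, m2⟩ : R) ⟨x₂, m3⟩ from Subtype.ext c3.eq).map i)

end Cfsg.Agent.H421.HT
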